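import Cfsg.Agent.Lib.PGroups.SLFreeCriteria
import Cfsg.Agent.Lib.TwoFusion.BenderMax
import Cfsg.Agent.Lib.Cores.Fitting
import Cfsg.Prelude.Def_OddOrderLocal

/-!
Centralizers of self-centralizing normal subgroups of a nilpotent subgroup containing the Fitting
subgroup of a solvable group.
-/

set_option autoImplicit false
set_option linter.style.haveILetI false

namespace CfsgLib.Hall

open Cfsg
open scoped commutatorElement

universe u

variable {S : Type u} [Group S] [Finite S]

/-- A group in which a power of every element with exponent a power of `r` is central is nilpotent. -/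
theorem isNilpotent_of_pow_mem_center {N : Type*} [Group N] {r : ℕ}
    (h : ∀ n : N, ∃ k : ℕ, n ^ r ^ k ∈ Subgroup.center N) [Finite N] [Fact r.Prime] :
    Group.IsNilpotent N := by
  have hp : IsPGroup r (N ⧸ Subgroup.center N) := fun q => by
    obtain ⟨n, rfl⟩ := QuotientGroup.mk'_surjective (Subgroup.center N) q
    obtain ⟨k, hk⟩ := h n
    exact ⟨k, by rw [← map_pow]; exact (QuotientGroup.eq_one_iff _).2 hk⟩
  exact Group.of_quotient_center_nilpotent hp.isNilpotent

/-- The centralizer of `A` lies in `A`. -/
theorem centralizer_le_of_scn [Group.IsSolvable S] (π : Set ℕ)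
    (h5 : ∀ r : ℕ, r.Prime → r ∈ π → 5 ≤ r)
    (hcore : ∀ r : ℕ, r.Prime → r ∉ π → pCore r S = ⊥)
    (A W : Subgroup S) [Group.IsNilpotent W] (hFW : fittingSubgroup S ≤ W) (hA : IsSCN W A) :
    Subgroup.centralizer (A : Set S) ≤ A := by
  obtain ⟨hAW, hWA, hWC⟩ := hA
  set C := Subgroup.centralizer (A : Set S) with hCdef
  have hAC : A ≤ C := hWC.ge.trans inf_le_right
  have hcommA : ∀ a ∈ A, ∀ b ∈ A, a * b = b * a := fun a ha b hb =>
    Subgroup.mem_centralizer_iff.1 (hAC hb) a ha
  -- elements of prime power order of `C(A)` lie in `A`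
  have main : ∀ r : ℕ, r.Prime → ∀ x ∈ C, ∀ k : ℕ, x ^ r ^ k = 1 → x ∈ A := by
    intro r hr x hxC k hk
    haveI := Fact.mk hr
    have hxA : ∀ a ∈ A, Commute a x := fun a ha => Subgroup.mem_centralizer_iff.1 hxC a ha
    -- `x` centralizes `O_p(S)` for `p ≠ r`
    have hcross : ∀ p : ℕ, p.Prime → p ≠ r → x ∈ Subgroup.centralizer (pCore p S : Set S) := by
      intro p hp hpr
      haveI := Fact.mk hp
      set Q := pCore p S with hQ
      let P : Subgroup S :=
        { carrier := {a | a ∈ A ∧ ∃ i : ℕ, a ^ p ^ i = 1}
          one_mem' := ⟨one_mem _, 0, one_pow _⟩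
          mul_mem' := by
            rintro a b ⟨ha, i, hi⟩ ⟨hb, j, hj⟩
            refine ⟨mul_mem ha hb, i + j, ?_⟩
            rw [(show Commute a b from hcommA a ha b hb).mul_pow, pow_add, pow_mul, hi, one_pow,
              one_mul, mul_comm (p ^ i), pow_mul, hj, one_pow]
          inv_mem' := by
            rintro a ⟨ha, i, hi⟩
            exact ⟨inv_mem ha, i, by rw [inv_pow, hi, inv_one]⟩ }
      have hP : IsPGroup p P := fun a => by
        obtain ⟨i, hi⟩ := a.2.2
        exact ⟨i, Subtype.ext (by rw [SubmonoidClass.coe_pow, hi, OneMemClass.coe_one])⟩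
      have hQn : Subgroup.normalizer (Q : Set S) = ⊤ := Subgroup.normalizer_eq_top Q
      refine CoprimeAction.pxq (P := P) (Q := Subgroup.zpowers x) (U := Q) hP ?_
        (Cores.isPGroup_pCore p S) ?_ (hQn.symm ▸ le_top) (hQn.symm ▸ le_top) ?_
        (Subgroup.mem_zpowers x)
      · rw [Nat.card_zpowers]
        exact (((Nat.coprime_primes hr hp).2 hpr.symm).pow_left k).coprime_dvd_left
          (orderOf_dvd_of_pow_eq_one hk)
      · refine fun a ha => Subgroup.mem_centralizer_iff.2 ?_
        rintro _ ⟨i, rfl⟩
        exact ((hxA a ha.1).zpow_right i).eq.symm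
      · rintro u ⟨hu, huP⟩
        have huW : u ∈ W := hFW (Cores.pCore_le_fittingSubgroup p hu)
        have huA : u ∈ A := by
          refine hWC.le ⟨huW, Subgroup.mem_centralizer_iff.2 fun a ha => ?_⟩
          obtain ⟨i, j, hij, hi, hj⟩ := NormalPComplement.exists_pParts (p := p) (g := a)
            (isOfFinOrder_of_finite a)
          have h1 : Commute (a ^ i) u := by
            obtain ⟨e, he⟩ := hi
            exact Subgroup.mem_centralizer_iff.1 huP _
              ⟨pow_mem ha i, e, orderOf_dvd_iff_pow_eq_one.1 he⟩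
          have h2 : Commute (a ^ j) u := by
            obtain ⟨e, he⟩ := IsPGroup.iff_orderOf.1 (Cores.isPGroup_pCore p S) ⟨u, hu⟩
            rw [Subgroup.orderOf_mk] at he
            exact congrArg Subtype.val (BGAppendix.commute_of_coprime_orderOf W
              ⟨a ^ j, hAW (pow_mem ha j)⟩ ⟨u, huW⟩ (by
                rw [Subgroup.orderOf_mk, Subgroup.orderOf_mk, he]
                exact hj.pow_right e)).eq
          rw [← hij]
          exact (h1.mul_left h2).eq
        refine Subgroup.mem_centralizer_iff.2 ?_
        rintro _ ⟨i, rfl⟩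
        exact ((hxA u huA).zpow_right i).eq.symm
    -- quadratic action on `O_r(S)`
    set Q := pCore r S with hQ
    set K := Subgroup.centralizer (Q : Set S) with hK
    have hxK : QuotientGroup.mk' K x ∈ pCore r (S ⧸ K) := by
      by_cases hrπ : r ∈ π
      · refine (PGroups.SLFree.of_isPSolvable (h5 r hr hrπ)
          PSolvable.isPSolvable_of_isSolvable).isPStableOn
          (fun h => by have := h5 r hr hrπ; omega) Q (Cores.isPGroup_pCore r S) x ?_
        rw [← le_bot_iff]
        have h1 : ⁅Q, Subgroup.zpowers x⁆ ≤ A := by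
          rw [Subgroup.commutator_le]
          intro q hq z hz
          have hqW : q ∈ W := hFW (Cores.pCore_le_fittingSubgroup r hq)
          refine hWC.le ⟨hFW (Cores.pCore_le_fittingSubgroup r ?_), ?_⟩
          · rw [commutatorElement_def, mul_assoc q, mul_assoc q]
            exact mul_mem hq ((inferInstance : Q.Normal).conj_mem _ (inv_mem hq) z)
          · have hz' : ∀ a ∈ A, Commute a z := fun a ha => by
              obtain ⟨i, rfl⟩ := hz
              exact (hxA a ha).zpow_right i
            refine Subgroup.mem_centralizer_iff.2 fun a ha => ?_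
            have e1 : Commute (q⁻¹ * a * q) z := hz' _ (by
              have := (Subgroup.mem_normalizer_iff.1 (hWA (inv_mem hqW)) a).1 ha
              simpa using this)
            have e2 : Commute a (q * z * q⁻¹) := by
              have := e1.map (MulAut.conj q).toMonoidHom
              simpa [mul_assoc] using this
            show a * ⁅q, z⁆ = ⁅q, z⁆ * a
            rw [commutatorElement_def]
            exact (e2.mul_right (hz' a ha).inv_right).eq
        refine (Subgroup.commutator_mono h1 le_rfl).trans ?_
        rw [le_bot_iff, Subgroup.commutator_eq_bot_iff_le_centralizer]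
        intro a ha
        refine Subgroup.mem_centralizer_iff.2 ?_
        rintro _ ⟨i, rfl⟩
        exact ((hxA a ha).zpow_right i).eq.symm
      · have hKtop : K = ⊤ := by
          rw [hK, hQ, hcore r hr hrπ]
          refine eq_top_iff.2 fun g _ => Subgroup.mem_centralizer_iff.2 fun b hb => ?_
          rw [SetLike.mem_coe, Subgroup.mem_bot] at hb
          simp [hb]
        rw [show QuotientGroup.mk' K x = 1 from
          (QuotientGroup.eq_one_iff x).2 (hKtop ▸ Subgroup.mem_top x)]
        exact one_mem _
    -- a normal nilpotent subgroup containing `x`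
    set D := ⨅ p : {p : ℕ // p.Prime ∧ p ≠ r}, Subgroup.centralizer (pCore (p : ℕ) S : Set S) with hD
    haveI : D.Normal := by rw [hD]; exact Subgroup.normal_iInf_normal fun p => inferInstance
    set N := (pCore r (S ⧸ K)).comap (QuotientGroup.mk' K) ⊓ D with hN
    haveI : ((pCore r (S ⧸ K)).comap (QuotientGroup.mk' K)).Normal :=
      Subgroup.Normal.comap (pCore_normal r _) _
    haveI : N.Normal := Subgroup.normal_inf_normal _ _
    have hxN : x ∈ N := ⟨hxK, Subgroup.mem_iInf.2 fun p => hcross p p.2.1 p.2.2⟩
    have hFle : ∀ g ∈ K ⊓ D, g ∈ fittingSubgroup S := by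
      intro g hg
      refine Cores.centralizer_fittingSubgroup_le ?_
      have hle : fittingSubgroup S ≤ Subgroup.centralizer ({g} : Set S) := by
        rw [Cores.fittingSubgroup_eq_iSup_pCore]
        refine iSup_le fun p y hy => Subgroup.mem_centralizer_singleton_iff.2 ?_
        rcases eq_or_ne (p : ℕ) r with e | e
        · exact Subgroup.mem_centralizer_iff.1 hg.1 y (show y ∈ pCore r S by rw [← e]; exact hy)
        · exact Subgroup.mem_centralizer_iff.1
            (Subgroup.mem_iInf.1 hg.2 ⟨p, Nat.prime_of_mem_primeFactors p.2, e⟩) y hy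
      exact Subgroup.mem_centralizer_iff.2 fun y hy =>
        Subgroup.mem_centralizer_singleton_iff.1 (hle hy)
    haveI : Group.IsNilpotent N := by
      refine isNilpotent_of_pow_mem_center (r := r) fun n => ?_
      obtain ⟨i, hi⟩ := Cores.isPGroup_pCore r (S ⧸ K) ⟨_, n.2.1⟩
      have hi' : (n : S) ^ r ^ i ∈ K ⊓ D := ⟨(QuotientGroup.eq_one_iff _).1 (by
          simpa using congrArg Subtype.val hi), pow_mem n.2.2 _⟩
      obtain ⟨a, b, hab, hea, heb⟩ := NormalPComplement.exists_pParts (p := r)
        (g := (n : S) ^ r ^ i) (isOfFinOrder_of_finite _)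
      obtain ⟨e, he⟩ := hea
      refine ⟨i + e, Subgroup.mem_center_iff.2 fun m => Subtype.ext ?_⟩
      show (m : S) * (n : S) ^ r ^ (i + e) = (n : S) ^ r ^ (i + e) * m
      set g := (n : S) ^ r ^ i with hg
      have hpow : (n : S) ^ r ^ (i + e) = (g ^ b) ^ r ^ e := by
        rw [pow_add, pow_mul, ← hg]
        conv_lhs => rw [← hab]
        rw [((Commute.refl g).pow_pow a b).mul_pow, orderOf_dvd_iff_pow_eq_one.1 he, one_mul]
      rw [hpow]
      -- `g ^ b` has order prime to `r`, so is centralized by `D`
      have hgbF : g ^ b ∈ fittingSubgroup S := pow_mem (hFle g hi') b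
      have hcen : ∀ y ∈ fittingSubgroup S, (orderOf y).Coprime r → ∀ d ∈ D, Commute d y := by
        intro y hy hyr d hd
        have hmem : y ∈ Subgroup.centralizer ({d} : Set S) := by
          refine TwoFusion.mem_of_coprime_of_contains (p := r)
            (Subgroup.centralizer ({d} : Set S)) ?_ (fun p hp hpr z hz => ?_)
            (le_sup_right (a := layer S) hy) hyr
          · refine Cores.layer_le_iff.2 fun L hL => ?_
            exfalso
            haveI : Group.IsPerfect ↥L := hL.2.1
            haveI := Cores.nontrivial_of_isQuasisimple hL.2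
            exact (Group.IsSolvable.commutator_lt_top_of_nontrivial L).ne Group.IsPerfect.commutator_eq_top
          · exact Subgroup.mem_centralizer_singleton_iff.2
              (Subgroup.mem_centralizer_iff.1 (Subgroup.mem_iInf.1 hd ⟨p, hp, hpr⟩) z hz)
        exact (Subgroup.mem_centralizer_singleton_iff.1 hmem).symm
      exact ((hcen _ hgbF heb m m.2.2).pow_right (r ^ e)).eq
    exact hWC.le ⟨hFW (Cores.le_fittingSubgroup (N := N) inferInstance hxN), hxC⟩
  -- Sylow subgroups of `C(A)` lie in `A`
  by_contra hle
  obtain ⟨r, hr, hd⟩ := Nat.exists_prime_and_dvd (n := (A.subgroupOf C).index)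
    (fun h => hle (Subgroup.subgroupOf_eq_top.1 (Subgroup.index_eq_one.1 h)))
  haveI := Fact.mk hr
  obtain ⟨P⟩ := (inferInstance : Nonempty (Sylow r C))
  have hP : (P : Subgroup C) ≤ A.subgroupOf C := fun g hg => by
    obtain ⟨k, hk⟩ := P.2 ⟨g, hg⟩
    exact main r hr g g.2 k (by simpa using congrArg (fun z : P => ((z : C) : S)) hk)
  exact P.not_dvd_index (hd.trans (Subgroup.index_dvd_of_le hP))

end CfsgLib.Hall
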